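import Cfsg.Agent.Lib.Helper35.JR.Defs

/-!
# JR (S3206), package [PSL]

The two facts on `PSL₂(F)` with abelian Sylow 2-subgroups, from [SYL4], [KEY0], [FODD].
-/

set_option autoImplicit false

namespace Cfsg.Agent.Lib.Helper49.JR

open Cfsg.Agent.Lib.Helper35.JR

universe u

theorem two_ne_zero_of_odd_card49 (F : Type u) [Field F] [Fintype F]
    (hodd : Odd (Fintype.card F)) : (2 : F) ≠ 0 := by
  intro h2
  have h1 : ringChar F ∣ 2 := by
    have := (ringChar.spec F 2).1 (by exact_mod_cast h2)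
    exact this
  have hp : (ringChar F).Prime := CharP.char_is_prime F (ringChar F)
  have h3 : ringChar F = 2 := (Nat.prime_dvd_prime_iff_eq hp Nat.prime_two).1 h1
  have h4 := FiniteField.even_card_of_char_two h3
  rcases hodd with ⟨m, hm⟩
  omega

theorem exists_sq_add_sq_eq_neg_one49 (F : Type u) [Field F] [Fintype F] :
    ∃ a b : F, a ^ 2 + b ^ 2 = -1 := by
  have : NeZero (ringChar F) := ⟨CharP.char_ne_zero_of_finite F (ringChar F)⟩
  obtain ⟨a, b, hab⟩ := CharP.sq_add_sq F (ringChar F) (-1 : ℤ)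
  exact ⟨a, b, by simpa using hab⟩

theorem pkgPSL : PkgSyl4.{u} → PkgKey0.{u} → PkgFodd.{u} → PkgPSL.{u} := by
  intro hSyl4 hKey0 hFodd F _ _ hodd _h3 hab
  have h2 : (2 : F) ≠ 0 := two_ne_zero_of_odd_card49 F hodd
  obtain ⟨a, b, h⟩ := exists_sq_add_sq_eq_neg_one49 F
  have hS := hSyl4 F h2 a b h hab
  have h1 : ∀ P : Sylow 2 (Matrix.ProjectiveSpecialLinearGroup (Fin 2) F),
      Nat.card ↥(P : Subgroup (Matrix.ProjectiveSpecialLinearGroup (Fin 2) F)) = 4 ∧
        ∀ x ∈ (P : Subgroup (Matrix.ProjectiveSpecialLinearGroup (Fin 2) F)), x ^ 2 = 1 :=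
    fun P => ⟨(hS P).1, (hS P).2.1⟩
  refine ⟨h1, ?_⟩
  intro α k hα P hfix
  obtain ⟨g, hg⟩ := (hS P).2.2
  have hσ := hFodd F hodd (fun P => (h1 P).2)
  -- the conjugated automorphism
  let c : MulAut (Matrix.ProjectiveSpecialLinearGroup (Fin 2) F) := MulAut.conj g⁻¹
  let α' : Matrix.ProjectiveSpecialLinearGroup (Fin 2) F ≃*
      Matrix.ProjectiveSpecialLinearGroup (Fin 2) F := c * α * c⁻¹
  have hα' : α' ^ (2 ^ k) = 1 := by
    show (c * α * c⁻¹) ^ (2 ^ k) = 1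
    rw [conj_pow, hα, mul_one, mul_inv_cancel]
  have happ : ∀ y, α' y = g⁻¹ * α (g * y * g⁻¹) * g := by
    intro y
    show c (α (c⁻¹ y)) = _
    simp only [c, MulAut.conj_inv_apply, MulAut.conj_apply, inv_inv]
  have hmemV : ∀ y ∈ V0 a b h, α' y = y := by
    intro y hy
    have hyP : g * y * g⁻¹ ∈ (P : Subgroup (Matrix.ProjectiveSpecialLinearGroup (Fin 2) F)) := by
      rw [hg]
      have : g⁻¹ * (g * y * g⁻¹) * g = y := by group
      rw [this]; exact hy
    rw [happ, hfix _ hyP]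
    group
  have hA : α' (pA F) = pA F := hmemV _ (by simp [V0])
  have hB : α' (pB a b h) = pB a b h := hmemV _ (by simp [V0])
  obtain ⟨v, hv, hvx⟩ := hKey0 F h2 a b h hσ α' k hα' hA hB
  refine ⟨g * v * g⁻¹, ?_, ?_⟩
  · rw [hg]
    have : g⁻¹ * (g * v * g⁻¹) * g = v := by group
    rw [this]; exact hv
  · intro x
    have h5 := hvx (g⁻¹ * x * g)
    rw [happ] at h5
    have h6 : g * (g⁻¹ * x * g) * g⁻¹ = x := by group
    rw [h6] at h5
    -- h5 : g⁻¹ * α x * g = v * (g⁻¹ * x * g) * v⁻¹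
    have h7 : α x = g * (g⁻¹ * α x * g) * g⁻¹ := by group
    rw [h7, h5]
    group

end Cfsg.Agent.Lib.Helper49.JR
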